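import Mathlib.GroupTheory.Sylow
import Mathlib.GroupTheory.SpecificGroups.Cyclic
import Mathlib.Algebra.Group.Subgroup.Basic

/-!
# Outer automorphisms fixing an element of prime order of an isolated torus (helper767, S3536 P-OUT)

`not_dvd_index` : `S ⊲ A`, `C_A(S) = 1`, the orders of the elements of `A` divisible by a prime divisor of `m` divide `m`;
`f` is an automorphism of `S` of order `t ^ j` (`t ∤ m` prime, `t ^ j` the `t`-part of `|Out S|`) which fixes an element of prime
order `r ∣ m`. Then `t ∤ |A : S|`.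
-/

set_option autoImplicit false

namespace Cfsg.Agent.H767.PO

/-- isolation -/
def Isol (m : ℕ) (A : Type*) [Group A] : Prop :=
  ∀ (r : ℕ) (x : A), r.Prime → r ∣ m → r ∣ orderOf x → orderOf x ∣ m

theorem Isol.congr {m : ℕ} {A B : Type*} [Group A] [Group B] (h : Isol m A) (f : B →* A)
    (hf : Function.Injective f) : Isol m B := by
  intro r x hr hrm hx
  rw [← orderOf_injective f hf x] at hx ⊢
  exact h r _ hr hrm hx

/-- no element of order `t * r` -/
theorem Isol.false {m : ℕ} {A : Type*} [Group A] [Finite A] (h : Isol m A) {t r : ℕ} (ht : t.Prime) (hr : r.Prime)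
    (htm : ¬ t ∣ m) (hrm : r ∣ m) {x z : A} (hx : ∃ l, l ≠ 0 ∧ orderOf x = t ^ l) (hz : orderOf z = r)
    (hc : Commute x z) : False := by
  obtain ⟨l, hl, hx⟩ := hx
  have hne : t ≠ r := by rintro rfl; exact htm hrm
  have hcop : (orderOf x).Coprime (orderOf z) := by
    rw [hx, hz]
    exact Nat.Coprime.pow_left _ ((Nat.coprime_primes ht hr).2 hne)
  have h1 := hc.orderOf_mul_eq_mul_orderOf_of_coprime hcop
  have h2 := h r (x * z) hr hrm (by rw [h1, hz]; exact dvd_mul_left _ _)
  rw [h1, hx] at h2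
  exact htm (((dvd_pow_self t hl).trans (dvd_mul_right _ _)).trans h2)

section

variable {G : Type*} [Group G]

instance conj_range_normal : (MulAut.conj (G := G)).range.Normal := by
  refine ⟨?_⟩
  rintro _ ⟨s, rfl⟩ f
  refine ⟨f s, ?_⟩
  ext x
  simp [MulAut.mul_apply, MulAut.conj_apply]

theorem conj_injective (hZ : Subgroup.center G = ⊥) : Function.Injective (MulAut.conj (G := G)) := by
  rw [injective_iff_map_eq_one]
  intro s hs
  have h : s ∈ Subgroup.center G := by
    rw [Subgroup.mem_center_iff]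
    intro g
    have h2 := DFunLike.congr_fun hs g
    rw [MulAut.conj_apply, MulAut.one_apply] at h2
    calc g * s = (s * g * s⁻¹) * s := by rw [h2]
      _ = s * g := by group
  rw [hZ] at h
  exact Subgroup.mem_bot.1 h

end

variable {A : Type*} [Group A] {S : Subgroup A} [hn : S.Normal]

theorem conjNormal_injective (hC : Subgroup.centralizer (S : Set A) = ⊥) :
    Function.Injective (MulAut.conjNormal : A →* MulAut S) := by
  rw [injective_iff_map_eq_one]
  intro a ha
  have h : a ∈ Subgroup.centralizer (S : Set A) := by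
    rw [Subgroup.mem_centralizer_iff]
    intro s hs
    have h2 := congrArg Subtype.val (DFunLike.congr_fun ha ⟨s, hs⟩)
    rw [MulAut.conjNormal_apply, MulAut.one_apply] at h2
    calc s * a = (a * s * a⁻¹) * a := by rw [h2]
      _ = a * s := by group
  rw [hC] at h
  exact Subgroup.mem_bot.1 h

theorem center_eq_bot (hC : Subgroup.centralizer (S : Set A) = ⊥) : Subgroup.center S = ⊥ := by
  rw [eq_bot_iff]
  intro s hs
  rw [Subgroup.mem_center_iff] at hs
  have h : (s : A) ∈ Subgroup.centralizer (S : Set A) := by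
    rw [Subgroup.mem_centralizer_iff]
    intro a ha
    exact congrArg Subtype.val (hs ⟨a, ha⟩)
  rw [hC] at h
  rw [Subgroup.mem_bot]
  exact Subtype.ext (Subgroup.mem_bot.1 h)

theorem conjNormal_coe (s : S) : (MulAut.conjNormal (s : A) : MulAut S) = MulAut.conj s := by
  ext x
  rw [MulAut.conjNormal_apply, MulAut.conj_apply]
  rfl

theorem not_dvd_index [Finite A] (hC : Subgroup.centralizer (S : Set A) = ⊥) {m : ℕ} (hI : Isol m A) {t : ℕ}
    (ht : t.Prime) (htm : ¬ t ∣ m) {r : ℕ} (hr : r.Prime) (hrm : r ∣ m) {z : S} (hz : orderOf z = r)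
    {f : MulAut S} {j : ℕ} (hf : orderOf f = t ^ j) (hfz : f z = z) {c : ℕ} (hc : ¬ t ∣ c)
    (hcard : Nat.card (MulAut S) = t ^ j * c * Nat.card S) : ¬ t ∣ S.index := by
  classical
  intro hti
  haveI : Fact t.Prime := ⟨ht⟩
  have hZ := center_eq_bot hC
  have hinj := conj_injective hZ
  have hIS : Isol m S := hI.congr S.subtype Subtype.val_injective
  set N := (MulAut.conj (G := S)).range with hN
  have hNcard : Nat.card N = Nat.card S := (Nat.card_congr (MonoidHom.ofInjective hinj).toEquiv).symm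
  have hQ : Nat.card (MulAut S ⧸ N) = t ^ j * c := by
    have h1 := Subgroup.card_eq_card_quotient_mul_card_subgroup N
    rw [hNcard, hcard] at h1
    exact (Nat.eq_of_mul_eq_mul_right Nat.card_pos h1).symm
  have hc0 : c ≠ 0 := by rintro rfl; exact hc (dvd_zero t)
  -- the order of the image of f
  have hord : orderOf (QuotientGroup.mk' N f) = t ^ j := by
    have h1 : orderOf (QuotientGroup.mk' N f) ∣ t ^ j := by
      rw [← hf]; exact orderOf_map_dvd _ _
    obtain ⟨l, hl, hl'⟩ := (Nat.dvd_prime_pow ht).1 h1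
    rcases hl.lt_or_eq with h2 | h2
    · exfalso
      have h3 : f ^ t ^ l ∈ N := by
        rw [← QuotientGroup.eq_one_iff, QuotientGroup.mk_pow]
        have := pow_orderOf_eq_one (QuotientGroup.mk' N f)
        rwa [hl'] at this
      obtain ⟨s, hs⟩ := h3
      have h4 : orderOf s = t ^ (j - l) := by
        rw [← orderOf_injective _ hinj s, hs, orderOf_pow, hf]
        rw [Nat.gcd_eq_right (pow_dvd_pow t hl), Nat.pow_div hl ht.pos]
      have h5 : (f ^ t ^ l) z = z := by
        have : ∀ i : ℕ, (f ^ i) z = z := by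
          intro i
          induction i with
          | zero => simp
          | succ i ih => rw [pow_succ, MulAut.mul_apply, hfz, ih]
        exact this _
      rw [← hs, MulAut.conj_apply] at h5
      refine hIS.false ht hr htm hrm ⟨j - l, by omega, h4⟩ hz ?_
      rw [Commute, SemiconjBy]
      calc s * z = (s * z * s⁻¹) * s := by group
        _ = z * s := by rw [h5]
    · rw [hl', h2]
  -- an element of order `t` of `A / S`
  have hti' : t ∣ Nat.card (A ⧸ S) := hti
  obtain ⟨x, hx⟩ := exists_prime_orderOf_dvd_card' t hti'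
  obtain ⟨x, rfl⟩ := QuotientGroup.mk_surjective x
  set y : MulAut S ⧸ N := QuotientGroup.mk' N (MulAut.conjNormal x) with hy
  have hmem : ∀ a : A, (MulAut.conjNormal a : MulAut S) ∈ N ↔ a ∈ S := by
    intro a
    constructor
    · rintro ⟨s, hs⟩
      rw [← conjNormal_coe] at hs
      rw [← conjNormal_injective hC hs]
      exact s.2
    · intro ha
      exact ⟨⟨a, ha⟩, (conjNormal_coe (⟨a, ha⟩ : S)).symm⟩
  have hy1 : y ≠ 1 := by
    intro h
    have h1 : (MulAut.conjNormal x : MulAut S) ∈ N := (QuotientGroup.eq_one_iff _).1 h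
    rw [hmem, ← QuotientGroup.eq_one_iff] at h1
    rw [h1, orderOf_one] at hx
    exact ht.one_lt.ne hx
  have hyt : y ^ t = 1 := by
    have h1 : x ^ t ∈ S := by
      rw [← QuotientGroup.eq_one_iff, QuotientGroup.mk_pow, ← hx, pow_orderOf_eq_one]
    rw [hy, ← map_pow, ← map_pow]
    exact (QuotientGroup.eq_one_iff _).2 ((hmem _).2 h1)
  have hyo : orderOf y = t := orderOf_eq_prime hyt hy1
  -- Sylow
  have hPc : Nat.card (Subgroup.zpowers (QuotientGroup.mk' N f)) = t ^ (Nat.card (MulAut S ⧸ N)).factorization t := by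
    rw [Nat.card_zpowers, hord, hQ, Nat.factorization_mul (pow_ne_zero _ ht.ne_zero) hc0, Nat.factorization_pow,
      Finsupp.add_apply, Finsupp.smul_apply, ht.factorization_self, Nat.factorization_eq_zero_of_not_dvd hc]
    simp
  let P : Sylow t (MulAut S ⧸ N) := Sylow.ofCard _ hPc
  have hyp : IsPGroup t (Subgroup.zpowers y) := IsPGroup.of_card (n := 1) (by rw [Nat.card_zpowers, hyo, pow_one])
  obtain ⟨P', hP'⟩ := hyp.exists_le_sylow
  obtain ⟨g, hg⟩ := MulAction.exists_smul_eq (MulAut S ⧸ N) P' P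
  have hgy : g * y * g⁻¹ ∈ Subgroup.zpowers (QuotientGroup.mk' N f) := by
    have h1 : y ∈ P' := hP' (Subgroup.mem_zpowers y)
    have h2 : g * y * g⁻¹ ∈ g • P' := by
      rw [Sylow.smul_def]
      exact Subgroup.smul_mem_pointwise_smul y (MulAut.conj g) _ h1
    rw [hg] at h2
    exact h2
  obtain ⟨α, rfl⟩ := QuotientGroup.mk_surjective g
  obtain ⟨i, hi⟩ := Subgroup.mem_zpowers_iff.1 hgy
  have h3 : (α * MulAut.conjNormal x * α⁻¹)⁻¹ * f ^ i ∈ N := by
    rw [← QuotientGroup.eq]
    rw [hy] at hi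
    exact hi.symm
  obtain ⟨s, hs⟩ := h3
  have h4 : f ^ i = α * MulAut.conjNormal (x * ((α⁻¹ s : S) : A)) * α⁻¹ := by
    rw [map_mul, conjNormal_coe]
    have h5 : MulAut.conj (α⁻¹ s) = α⁻¹ * MulAut.conj s * α := by
      ext w
      simp [MulAut.mul_apply, MulAut.conj_apply]
    rw [h5, hs]
    group
  set x' : A := x * ((α⁻¹ s : S) : A) with hx'
  have h5 : (MulAut.conjNormal x' : MulAut S) = α⁻¹ * f ^ i * α := by rw [h4]; group
  have hfiz : (f ^ i) z = z := by
    have h6 : f ∈ MulAction.stabilizer (MulAut S) z := hfz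
    exact (MulAction.stabilizer (MulAut S) z).zpow_mem h6 i
  have h6 : Commute x' ((α⁻¹ z : S) : A) := by
    have h7 := congrArg Subtype.val (DFunLike.congr_fun h5 (α⁻¹ z))
    rw [MulAut.conjNormal_apply, MulAut.mul_apply, MulAut.mul_apply, MulAut.apply_inv_self, hfiz] at h7
    rw [Commute, SemiconjBy]
    calc x' * ((α⁻¹ z : S) : A) = (x' * ((α⁻¹ z : S) : A) * x'⁻¹) * x' := by group
      _ = ((α⁻¹ z : S) : A) * x' := by rw [h7]
  have h7 : orderOf x' ∣ t ^ j := by
    rw [← orderOf_injective _ (conjNormal_injective hC) x', h5]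
    have h8 : orderOf (α⁻¹ * f ^ i * α) = orderOf (f ^ i) := by
      have := orderOf_injective (MulAut.conj α⁻¹).toMonoidHom (MulAut.conj α⁻¹).injective (f ^ i)
      simpa using this
    rw [h8, ← hf]
    exact orderOf_dvd_of_pow_eq_one (by rw [← zpow_natCast, ← zpow_mul, mul_comm, zpow_mul, zpow_natCast,
      pow_orderOf_eq_one, one_zpow])
  obtain ⟨l, hl, hl'⟩ := (Nat.dvd_prime_pow ht).1 h7
  refine hI.false ht hr htm hrm ⟨l, ?_, hl'⟩ (z := ((α⁻¹ z : S) : A)) ?_ h6
  · rintro rfl
    rw [pow_zero, orderOf_eq_one_iff] at hl'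
    apply hy1
    have h8 : x = ((α⁻¹ s : S) : A)⁻¹ := eq_inv_of_mul_eq_one_left hl'
    apply (QuotientGroup.eq_one_iff _).2
    rw [hmem, h8]
    exact S.inv_mem (α⁻¹ s).2
  · rw [Subgroup.orderOf_coe, MulEquiv.orderOf_eq, hz]

end Cfsg.Agent.H767.PO
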