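import Cfsg.Agent.H767.PO.Orth
import Cfsg.Agent.H202.TP.Defs

/-!
# P-OUT (S3536): no outer automorphisms (helper767, task 3266)

`eq_top` : `A` finite, `S ⊲ A`, `C_A(S) = 1`, `S ≅ PSp (2 ^ k) F` or `POmega F (quadFormOdd (2 ^ k) F)`,
`|F| = p ^ a`, `a` odd, `p` odd, isolation in `A` (the elements whose orders are divisible by a prime divisor of `mn q k`
have orders dividing `mn q k`), `|A : S|` prime to `mn q k`: then `S = A`.
-/

set_option autoImplicit false

namespace Cfsg.Agent.H767.PO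

open Cfsg Cfsg.Agent.H202.TP

/-- **P-OUT.** -/
theorem eq_top {A : Type*} [Group A] [Finite A] {S : Subgroup A} [S.Normal]
    (hC : Subgroup.centralizer (S : Set A) = ⊥) {F : Type*} [Field F] [Fintype F] {p a k : ℕ} (hp : p.Prime)
    (hp2 : p ≠ 2) (ha : Odd a) (hF : Fintype.card F = p ^ a) (hk : 2 ≤ k)
    (e : Nonempty (S ≃* PSp (2 ^ k) F) ∨ Nonempty (S ≃* POmega F (quadFormOdd (2 ^ k) F)))
    (hI : ∀ (r : ℕ) (x : A), r.Prime → r ∣ mn (Fintype.card F) k → r ∣ orderOf x →
      orderOf x ∣ mn (Fintype.card F) k)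
    (hidx : S.index.Coprime (mn (Fintype.card F) k)) : S = ⊤ := by
  have hodd : Odd (Fintype.card F) := by rw [hF]; exact (hp.odd_of_ne_two hp2).pow
  have hm := two_mn (q := Fintype.card F) hk hodd
  have hm2 : ¬ 2 ∣ mn (Fintype.card F) k := by
    rw [mn_eq hk]
    intro h
    have := Cfsg.Agent.H202.T.mm_mod (q := Fintype.card F ^ 2 ^ (k - 2)) hodd.pow
    omega
  have hS : OutOK (mn (Fintype.card F) k) S := by
    rcases e with e | e
    · exact (outOK_sp hp hp2 ha hF (by omega) hm).congr e.some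
    · exact (outOK_orth hp hp2 ha hF hk hm).congr e.some
  exact eq_top_of_outOK hC hm2 hI hS hidx

end Cfsg.Agent.H767.PO
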